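/-
Recognition of a group from its commuting graph: the abstract part.
-/
import Cfsg.Agent.Base

set_option autoImplicit false

namespace CL.NCG

open Subgroup

variable {G M : Type*} [Group G] [Group M]

/-- The centre of `G` is trivial. -/
theorem center_eq_bot (φ : {g : G // g ∉ center G} ≃ {m : M // m ∉ center M})
    (hφ : ∀ x y : {g : G // g ∉ center G}, Commute x.1 y.1 ↔ Commute (φ x).1 (φ y).1)
    (hZ : center M = ⊥) {t : M} (ht : t ≠ 1)
    (hcc : ∀ g : M, (∀ x, Commute x t → Commute x g) → g = 1 ∨ g = t) : center G = ⊥ := by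
  have hn : ∀ m : M, m ≠ 1 → m ∉ center M := fun m hm h => hm (by rwa [hZ, mem_bot] at h)
  rw [eq_bot_iff]
  intro z hz
  set s := φ.symm ⟨t, hn t ht⟩ with hs
  have hzs : z * s.1 ∉ center G := fun h => s.2 (by simpa using mul_mem (inv_mem hz) h)
  have hφs : (φ s).1 = t := by rw [hs, Equiv.apply_symm_apply]
  rcases hcc (φ ⟨_, hzs⟩).1 (fun x hx => by
    by_cases h1 : x = 1
    · rw [h1]; exact Commute.one_left _
    have h2 : Commute (φ.symm ⟨x, hn x h1⟩).1 s.1 := by
      rw [hφ, Equiv.apply_symm_apply, hφs]; exact hx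
    have h3 : Commute (φ.symm ⟨x, hn x h1⟩).1 (z * s.1) :=
      Commute.mul_right (mem_center_iff.1 hz _) h2
    have := (hφ (φ.symm ⟨x, hn x h1⟩) ⟨_, hzs⟩).1 h3
    rwa [Equiv.apply_symm_apply] at this) with h | h
  · exact absurd (h ▸ one_mem _) (φ ⟨_, hzs⟩).2
  · have h1 : (⟨_, hzs⟩ : {g : G // g ∉ center G}) = s := φ.injective (Subtype.ext (h.trans hφs.symm))
    have h2 : z * s.1 = s.1 := congrArg Subtype.val h1
    simpa using h2

/-- The bijection extends to the whole groups. -/
theorem exists_equiv (φ : {g : G // g ∉ center G} ≃ {m : M // m ∉ center M})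
    (hφ : ∀ x y : {g : G // g ∉ center G}, Commute x.1 y.1 ↔ Commute (φ x).1 (φ y).1)
    (hZ : center M = ⊥) (hG : center G = ⊥) :
    ∃ ψ : G ≃ M, ∀ x y, Commute x y ↔ Commute (ψ x) (ψ y) := by
  classical
  have hM1 : ∀ m : M, m ∈ center M ↔ m = 1 := fun m => by rw [hZ, mem_bot]
  have hG1 : ∀ m : G, m ∈ center G ↔ m = 1 := fun m => by rw [hG, mem_bot]
  refine ⟨⟨fun g => if h : g ∈ center G then 1 else (φ ⟨g, h⟩).1,
    fun m => if h : m ∈ center M then 1 else (φ.symm ⟨m, h⟩).1, fun g => ?_, fun m => ?_⟩, fun x y => ?_⟩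
  · by_cases h : g ∈ center G
    · simp only [dif_pos h, dif_pos (one_mem (center M))]
      exact ((hG1 g).1 h).symm
    · simp only [dif_neg h, dif_neg (φ ⟨g, h⟩).2, Subtype.coe_eta, Equiv.symm_apply_apply]
  · by_cases h : m ∈ center M
    · simp only [dif_pos h, dif_pos (one_mem (center G))]
      exact ((hM1 m).1 h).symm
    · simp only [dif_neg h, dif_neg (φ.symm ⟨m, h⟩).2, Subtype.coe_eta, Equiv.apply_symm_apply]
  · simp only [Equiv.coe_fn_mk]
    by_cases hx : x ∈ center G
    · rw [dif_pos hx, (hG1 x).1 hx]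
      exact iff_of_true (Commute.one_left _) (Commute.one_left _)
    by_cases hy : y ∈ center G
    · rw [dif_pos hy, (hG1 y).1 hy]
      exact iff_of_true (Commute.one_right _) (Commute.one_right _)
    rw [dif_neg hx, dif_neg hy]
    exact hφ ⟨x, hx⟩ ⟨y, hy⟩

/-- Rigidity of a generating normal subset gives the isomorphism. -/
theorem iso_of_rigid [Finite G] (ψ : G ≃ M) (hψ : ∀ x y, Commute x y ↔ Commute (ψ x) (ψ y))
    (hZ : center M = ⊥) (D : Set M) (hD : ∀ m, ∀ u ∈ D, m * u * m⁻¹ ∈ D)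
    (hgen : ∀ K : Subgroup M, D ⊆ K → K = ⊤)
    (rig : ∀ t ∈ D, ∀ α : M ≃ M, (∀ x y, Commute x y ↔ Commute (α x) (α y)) →
      (∀ x, α x = x ↔ Commute x t) → ∀ u ∈ D, α u = t * u * t⁻¹) : Nonempty (G ≃* M) := by
  let H : Subgroup (G × M) :=
    { carrier := {p | ∀ u ∈ D, ψ (p.1 * ψ.symm u * p.1⁻¹) = p.2 * u * p.2⁻¹}
      one_mem' := fun u _ => by simp
      mul_mem' := fun {p q} hp hq u hu => by
        have h1 := hq u hu
        have h2 := hp _ (hD q.2 u hu)
        rw [← h1, Equiv.symm_apply_apply, h1] at h2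
        simp only [Prod.fst_mul, Prod.snd_mul, mul_inv_rev]
        simpa only [mul_assoc] using h2
      inv_mem' := fun {p} hp u hu => by
        have h1 := hp _ (hD p.2⁻¹ u hu)
        have h2 : p.2 * (p.2⁻¹ * u * p.2⁻¹⁻¹) * p.2⁻¹ = u := by group
        rw [h2, ← Equiv.eq_symm_apply] at h1
        simp only [Prod.fst_inv, Prod.snd_inv]
        rw [← h1, ← Equiv.eq_symm_apply]
        group }
  have hsurj : Function.Surjective ((MonoidHom.snd G M).comp H.subtype) := by
    rw [← MonoidHom.range_eq_top]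
    refine hgen _ fun t ht => ?_
    refine ⟨⟨(ψ.symm t, t), fun u hu => ?_⟩, rfl⟩
    refine rig t ht ((ψ.symm.trans (MulAut.conj (ψ.symm t)).toEquiv).trans ψ) (fun x y => ?_) (fun x => ?_) u hu
    · simp only [Equiv.trans_apply]
      rw [← hψ]
      have h1 := hψ (ψ.symm x) (ψ.symm y)
      rw [Equiv.apply_symm_apply, Equiv.apply_symm_apply] at h1
      rw [← h1]
      exact ⟨fun h => h.map (MulAut.conj (ψ.symm t)), fun h => by
        simpa [mul_assoc] using h.map (MulAut.conj (ψ.symm t)).symm⟩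
    · simp only [Equiv.trans_apply]
      have h1 := hψ (ψ.symm x) (ψ.symm t)
      rw [Equiv.apply_symm_apply, Equiv.apply_symm_apply] at h1
      rw [← h1, ← Equiv.eq_symm_apply]
      change ψ.symm t * ψ.symm x * (ψ.symm t)⁻¹ = ψ.symm x ↔ _
      rw [mul_inv_eq_iff_eq_mul]
      exact eq_comm
  have hinj : Function.Injective ((MonoidHom.fst G M).comp H.subtype) := by
    rw [injective_iff_map_eq_one]
    rintro ⟨⟨g, m⟩, hp⟩ h
    have hg : g = 1 := h
    subst hg
    have h1 : centralizer {m} = ⊤ := hgen _ fun u hu => by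
      have := hp u hu
      simp only [one_mul, inv_one, mul_one, Equiv.apply_symm_apply] at this
      rw [SetLike.mem_coe, mem_centralizer_singleton_iff]
      exact (eq_mul_inv_iff_mul_eq.1 this)
    have h2 : m ∈ center M := mem_center_iff.2 fun g => by
      have : g ∈ centralizer {m} := h1 ▸ mem_top g
      exact mem_centralizer_singleton_iff.1 this
    rw [hZ, mem_bot] at h2
    subst h2
    rfl
  have : Finite M := Finite.of_equiv G ψ
  have c1 := Nat.card_le_card_of_surjective _ hsurj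
  have c2 := Nat.card_le_card_of_injective _ hinj
  have c3 := Nat.card_congr ψ
  have b1 : Function.Bijective ((MonoidHom.snd G M).comp H.subtype) :=
    (Nat.bijective_iff_surjective_and_card _).2 ⟨hsurj, by omega⟩
  have b2 : Function.Bijective ((MonoidHom.fst G M).comp H.subtype) :=
    (Nat.bijective_iff_injective_and_card _).2 ⟨hinj, by omega⟩
  exact ⟨(MulEquiv.ofBijective _ b2).symm.trans (MulEquiv.ofBijective _ b1)⟩

end CL.NCG
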