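/-
Recognition of `Ω` over the field with three elements from its commuting graph: linear algebra.
-/
import Cfsg.Agent.Cls.OrthNeg

set_option autoImplicit false

open QuadraticMap Module

namespace CL.NCG

open CL.Cls

variable {F V : Type*} [Field F] [AddCommGroup V] [Module F V] {Q : QuadraticForm F V}

/-- `y` is orthogonal to all members of `L`. -/
def Pp (Q : QuadraticForm F V) (L : List V) (y : V) : Prop := ∀ x ∈ L, polar Q x y = 0

theorem cut [FiniteDimensional F V] (h2 : (2 : F) ≠ 0) {W : Submodule F V} (hW : NDon Q W) (x : V) :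
    ∃ W' ≤ W, NDon Q W' ∧ finrank F W ≤ finrank F W' + 2 ∧ ∀ w ∈ W', polar Q x w = 0 := by
  have hB : (LinearMap.BilinForm.restrict (polarBilin Q) W).Nondegenerate := by
    refine ⟨fun y hy => Subtype.ext (hW y y.2 fun z hz => by simpa using hy ⟨z, hz⟩), fun y hy =>
      Subtype.ext (hW y y.2 fun z hz => ?_)⟩
    rw [polar_comm]
    simpa using hy ⟨z, hz⟩
  set x' := (LinearMap.BilinForm.toDual _ hB).symm ((polarBilin Q x).comp W.subtype) with hx'
  have hx : ∀ w ∈ W, polar Q x' w = polar Q x w := fun w hw => by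
    have := LinearMap.BilinForm.apply_toDual_symm_apply (hB := hB) ((polarBilin Q x).comp W.subtype) ⟨w, hw⟩
    simpa using this
  by_cases h0 : (x' : V) = 0
  · exact ⟨W, le_rfl, hW, by omega, fun w hw => by rw [← hx w hw, h0, polar_zero_left]⟩
  by_cases hq : Q x' = 0
  · obtain ⟨f, hf, hef⟩ := hW.exists_hyp x'.2 h0 hq
    exact ⟨_, hypC_le, hW.hypC hef x'.2 hf, (finrank_hypC hef x'.2 hf).ge, fun w hw => by
      rw [← hx w (hypC_le hw)]; exact (mem_hypC.1 hw).2.1⟩
  · refine ⟨W ⊓ perp Q x', inf_le_left, hW.inf_perp x'.2 (by rw [polar_self']; exact mul_ne_zero h2 hq), ?_,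
      fun w hw => by rw [← hx w hw.1]; exact mem_perp.1 hw.2⟩
    have := finrank_le_finrank_inf_perp_succ (Q := Q) W x'
    omega

theorem exists_ndon_orth [FiniteDimensional F V] (hQ : (polarBilin Q).Nondegenerate) (h2 : (2 : F) ≠ 0)
    (T : List V) (hT : ∀ x ∈ T, Q x ≠ 0) (hp : T.Pairwise fun x y => polar Q x y = 0) :
    ∃ W, NDon Q W ∧ finrank F V ≤ finrank F W + T.length ∧ ∀ w, w ∈ W ↔ Pp Q T w := by
  induction T with
  | nil => exact ⟨⊤, ndon_top hQ, by simp, fun w => by simp [Pp]⟩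
  | cons x T ih =>
    rw [List.pairwise_cons] at hp
    obtain ⟨W, h1, h3, h4⟩ := ih (fun y hy => hT y (List.mem_cons_of_mem _ hy)) hp.2
    have hx : x ∈ W := (h4 x).2 fun y hy => by rw [polar_comm]; exact hp.1 y hy
    refine ⟨W ⊓ perp Q x, h1.inf_perp hx (by
      rw [polar_self']; exact mul_ne_zero h2 (hT x List.mem_cons_self)), ?_, fun w => ?_⟩
    · have := finrank_le_finrank_inf_perp_succ (Q := Q) W x
      simp only [List.length_cons]
      omega
    · simp only [Submodule.mem_inf, h4, mem_perp, Pp, List.forall_mem_cons]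
      exact and_comm

/-- The standing hypotheses. -/
structure Ctx (Q : QuadraticForm F V) : Prop where
  nd : (polarBilin Q).Nondegenerate
  h3 : ∀ x : F, x = 0 ∨ x = 1 ∨ x = -1
  h2 : (2 : F) ≠ 0
  dim : 10 ≤ finrank F V
  ev : Even (finrank F V)
  neg : negOG Q ∉ commutator (OG Q)

variable [Finite F] [FiniteDimensional F V]

theorem Ctx.ex (c : Ctx Q) (T L : List V) (hT : ∀ x ∈ T, Q x ≠ 0)
    (hp : T.Pairwise fun x y => polar Q x y = 0) (h : T.length + 2 * L.length ≤ 8) (k : F) :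
    ∃ y, Q y = k ∧ Pp Q T y ∧ Pp Q L y := by
  obtain ⟨W, h1, h3, h4⟩ := exists_ndon_orth c.nd c.h2 T hT hp
  have key : ∃ W' ≤ W, NDon Q W' ∧ finrank F W ≤ finrank F W' + 2 * L.length ∧ ∀ w ∈ W', Pp Q L w := by
    clear h
    induction L with
    | nil => exact ⟨W, le_rfl, h1, by simp, fun w _ => by simp [Pp]⟩
    | cons x L ih =>
      obtain ⟨W', a1, a2, a3, a4⟩ := ih
      obtain ⟨W'', b1, b2, b3, b4⟩ := cut c.h2 a2 x
      refine ⟨W'', b1.trans a1, b2, by simp only [List.length_cons]; omega, fun w hw => ?_⟩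
      simp only [Pp, List.forall_mem_cons]
      exact ⟨b4 w hw, a4 w (b1 hw)⟩
  obtain ⟨W', a1, a2, a3, a4⟩ := key
  have := c.dim
  obtain ⟨y, hy, hk⟩ := a2.exists_map_eq (by omega) k
  exact ⟨y, hk, (h4 y).1 (a1 hy), a4 y hy⟩

omit [Finite F] [FiniteDimensional F V]

theorem Ctx.three (c : Ctx Q) : (3 : F) = 0 := by
  rcases c.h3 2 with h | h | h
  · exact absurd h c.h2
  · exact absurd (by linear_combination h) (one_ne_zero (α := F))
  · linear_combination h

/-- `g` fixes the point spanned by `v`. -/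
def Fx (g : OG Q) (v : V) : Prop := g.1 v = v ∨ g.1 v = -v

/-- An orthogonal pair of vectors of the same non-zero norm. -/
structure IsD (Q : QuadraticForm F V) (a b : V) : Prop where
  ne : Q a ≠ 0
  eq : Q b = Q a
  o : polar Q a b = 0

theorem IsD.ne' {a b : V} (h : IsD Q a b) : Q b ≠ 0 := h.eq ▸ h.ne

theorem IsD.o' {a b : V} (h : IsD Q a b) : polar Q b a = 0 := by rw [polar_comm]; exact h.o

theorem IsD.map {a b : V} (h : IsD Q a b) (g : OG Q) : IsD Q (g.1 a) (g.1 b) :=
  ⟨by rw [OG.map_app]; exact h.ne, by rw [OG.map_app, OG.map_app, h.eq], by rw [OG.polar_app, h.o]⟩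

/-- The product of two reflections. -/
def dd (Q : QuadraticForm F V) (a b : V) : OG Q := refl Q a * refl Q b

theorem dd_conj (g : OG Q) (a b : V) : g * dd Q a b * g⁻¹ = dd Q (g.1 a) (g.1 b) := by
  rw [dd, dd, ← refl_conj, ← refl_conj]; group

theorem dd_fix {a b x : V} (ha : polar Q a x = 0) (hb : polar Q b x = 0) : (dd Q a b).1 x = x := by
  rw [dd, OG.mul_app, refl_app_of_polar hb, refl_app_of_polar ha]

theorem dd_left {a b : V} (ha : Q a ≠ 0) (h : polar Q a b = 0) : (dd Q a b).1 a = -a := by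
  rw [dd, OG.mul_app, refl_app_of_polar (v := b) (x := a) (by rw [polar_comm]; exact h), refl_app_self ha]

theorem dd_right {a b : V} (hb : Q b ≠ 0) (h : polar Q a b = 0) : (dd Q a b).1 b = -b := by
  rw [dd, OG.mul_app, refl_app_self hb, map_neg, refl_app_of_polar h]

theorem Fx.refl_eq {g : OG Q} {v : V} (h : Fx g v) : refl Q (g.1 v) = refl Q v := by
  rcases h with h | h <;> rw [h]
  exact refl_neg v

theorem comm_dd {g : OG Q} {a b : V} (ha : Fx g a) (hb : Fx g b) : Commute (dd Q a b) g := by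
  have := dd_conj g a b
  rw [dd, dd, ha.refl_eq, hb.refl_eq, mul_inv_eq_iff_eq_mul] at this
  exact this.symm

theorem app_comm {g h : OG Q} (H : Commute g h) (x : V) : g.1 (h.1 x) = h.1 (g.1 x) := by
  rw [← OG.mul_app, H.eq, OG.mul_app]

theorem fx_of_comm (c : Ctx Q) {g : OG Q} {v f f' : V} (h : IsD Q v f) (h' : IsD Q v f')
    (hf : polar Q f f' = 0) (H : Commute (dd Q v f) g) (H' : Commute (dd Q v f') g) : Fx g v := by
  have e1 := app_comm H v
  have e2 := app_comm H' v
  rw [dd_left h.ne h.o, map_neg, dd, OG.mul_app, refl_app, refl_app, polar_sub_right, polar_smul_right,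
    h.o] at e1
  rw [dd_left h'.ne h'.o, map_neg, dd, OG.mul_app, refl_app, refl_app, polar_sub_right, polar_smul_right,
    h'.o] at e2
  simp only [smul_eq_mul, mul_zero, sub_zero] at e1 e2
  set w := g.1 v with hw
  set k := (Q v)⁻¹ * polar Q v w
  set k1 := (Q f)⁻¹ * polar Q f w
  set k2 := (Q f')⁻¹ * polar Q f' w
  have e3 : k1 • f = k2 • f' := by linear_combination (norm := module) e2 - e1
  have e4 : k1 = 0 := by
    have := congrArg (polar Q f) e3
    rw [polar_smul_right, polar_smul_right, hf, polar_self', smul_zero, smul_eq_mul] at this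
    exact (mul_eq_zero.1 this).resolve_right (mul_ne_zero c.h2 h.ne')
  rw [e4, zero_smul, sub_zero] at e1
  have e5 : w = (-k) • v := by
    have h3 : (3 : F) • w = 0 := by rw [c.three, zero_smul]
    linear_combination (norm := module) h3 - e1
  rcases c.h3 (-k) with h0 | h0 | h0 <;> rw [h0] at e5
  · rw [zero_smul] at e5
    have := OG.map_app g v
    rw [← hw, e5, QuadraticMap.map_zero] at this
    exact absurd this.symm h.ne
  · exact Or.inl (by rw [← hw, e5, one_smul])
  · exact Or.inr (by rw [← hw, e5, neg_one_smul])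

theorem dec1 (h2 : (2 : F) ≠ 0) {a : V} (ha : Q a ≠ 0) (v : V) :
    ∃ (k : F) (w : V), v = w + k • a ∧ polar Q a w = 0 := by
  refine ⟨(2 * Q a)⁻¹ * polar Q a v, v - ((2 * Q a)⁻¹ * polar Q a v) • a, by simp, ?_⟩
  rw [polar_sub_right, polar_smul_right, polar_self', smul_eq_mul]
  field_simp
  ring

theorem dec2 (h2 : (2 : F) ≠ 0) {a b : V} (ha : Q a ≠ 0) (hb : Q b ≠ 0) (hab : polar Q a b = 0) (v : V) :
    ∃ (k l : F) (w : V), v = w + k • a + l • b ∧ polar Q a w = 0 ∧ polar Q b w = 0 := by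
  obtain ⟨l, w, rfl, h1⟩ := dec1 h2 hb v
  obtain ⟨k, w', rfl, h3⟩ := dec1 h2 ha w
  refine ⟨k, l, w', rfl, h3, ?_⟩
  rwa [polar_add_right, polar_smul_right, polar_comm Q b a, hab, smul_zero, add_zero] at h1

theorem dec3 (h2 : (2 : F) ≠ 0) {a b f : V} (ha : Q a ≠ 0) (hb : Q b ≠ 0) (hf : Q f ≠ 0)
    (hab : polar Q a b = 0) (haf : polar Q a f = 0) (hbf : polar Q b f = 0) (v : V) :
    ∃ (k l m : F) (w : V), v = w + k • a + l • b + m • f ∧ polar Q a w = 0 ∧ polar Q b w = 0 ∧
      polar Q f w = 0 := by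
  obtain ⟨m, w, rfl, h1⟩ := dec1 h2 hf v
  obtain ⟨k, l, w', rfl, h3, h4⟩ := dec2 h2 ha hb hab w
  refine ⟨k, l, m, w', rfl, h3, h4, ?_⟩
  rwa [polar_add_right, polar_add_right, polar_smul_right, polar_smul_right, polar_comm Q f a,
    polar_comm Q f b, haf, hbf, smul_zero, smul_zero, add_zero, add_zero] at h1

theorem ext2 (h2 : (2 : F) ≠ 0) {a b : V} (h : IsD Q a b) {g g' : OG Q} (h1 : g.1 a = g'.1 a)
    (h3 : g.1 b = g'.1 b) (h4 : ∀ w, polar Q a w = 0 → polar Q b w = 0 → g.1 w = g'.1 w) : g = g' :=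
  OG.ext' fun v => by
    obtain ⟨k, l, w, rfl, h5, h6⟩ := dec2 h2 h.ne h.ne' h.o v
    simp only [map_add, map_smul, h1, h3, h4 w h5 h6]

theorem eq_dd (h2 : (2 : F) ≠ 0) {a b : V} (h : IsD Q a b) {g : OG Q} (h1 : g.1 a = -a)
    (h3 : g.1 b = -b) (h4 : ∀ w, polar Q a w = 0 → polar Q b w = 0 → g.1 w = w) : g = dd Q a b :=
  ext2 h2 h (by rw [h1, dd_left h.ne h.o]) (by rw [h3, dd_right h.ne' h.o]) fun w h5 h6 => by
    rw [h4 w h5 h6, dd_fix h5 h6]

theorem ne_neg_self (h2 : (2 : F) ≠ 0) {v : V} (hv : Q v ≠ 0) : v ≠ -v := fun h => by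
  have : (2 : F) • v = 0 := by rw [two_smul]; exact eq_neg_iff_add_eq_zero.1 h
  rcases smul_eq_zero.1 this with h | h
  · exact h2 h
  · exact hv (by rw [h, QuadraticMap.map_zero])

/-- Two orthogonal non-singular eigenvectors with different signs do not fit in an eigenvector. -/
theorem no_mix (h2 : (2 : F) ≠ 0) {g : OG Q} {y y' z : V} (hy : Q y ≠ 0) (hy' : Q y' ≠ 0)
    (o1 : polar Q y y' = 0) (o2 : polar Q y z = 0) (o3 : polar Q y' z = 0) (h1 : g.1 y = y)
    (h3 : g.1 y' = -y') (hz : Fx g z) (h : Fx g (y + y' + z)) : False := by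
  have a1 : polar Q y (g.1 z) = 0 := by rcases hz with e | e <;> simp [e, o2]
  have a2 : polar Q y' (g.1 z) = 0 := by rcases hz with e | e <;> simp [e, o3]
  have o1' : polar Q y' y = 0 := by rw [polar_comm]; exact o1
  rcases h with h | h <;> rw [map_add, map_add, h1, h3] at h
  · have := congrArg (polar Q y') h
    simp only [polar_add_right, polar_neg_right, o1', a2, o3, polar_self'] at this
    exact mul_ne_zero h2 (mul_ne_zero h2 hy') (by linear_combination -this)
  · have := congrArg (polar Q y) h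
    simp only [polar_add_right, polar_neg_right, o1, a1, o2, polar_self'] at this
    exact mul_ne_zero h2 (mul_ne_zero h2 hy) (by linear_combination this)

theorem Pp.add {L : List V} {x y : V} (hx : Pp Q L x) (hy : Pp Q L y) : Pp Q L (x + y) := fun z hz => by
  rw [polar_add_right, hx z hz, hy z hz, add_zero]

theorem pp_cons {L : List V} {x y : V} : Pp Q (x :: L) y ↔ polar Q x y = 0 ∧ Pp Q L y :=
  List.forall_mem_cons

theorem pp_nil {y : V} : Pp Q [] y := fun _ h => absurd h List.not_mem_nil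

theorem pw_cons {T : List V} {y : V} (hp : T.Pairwise fun x y => polar Q x y = 0) (hy : Pp Q T y) :
    (y :: T).Pairwise fun x y => polar Q x y = 0 :=
  List.pairwise_cons.2 ⟨fun x hx => by rw [polar_comm]; exact hy x hx, hp⟩

theorem ns_cons {T : List V} {y : V} (hT : ∀ x ∈ T, Q x ≠ 0) (hy : Q y ≠ 0) : ∀ x ∈ y :: T, Q x ≠ 0 :=
  List.forall_mem_cons.2 ⟨hy, hT⟩

/-- An isometry fixing the non-singular points of a large subspace is a scalar there. -/
theorem Ctx.scalar [Finite F] [FiniteDimensional F V] (c : Ctx Q) (T L : List V) (hT : ∀ x ∈ T, Q x ≠ 0)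
    (hp : T.Pairwise fun x y => polar Q x y = 0) (h : T.length + 2 * L.length ≤ 6) {g : OG Q}
    (hg : ∀ y, Pp Q T y → Pp Q L y → Q y ≠ 0 → Fx g y) :
    (∀ y, Pp Q T y → Pp Q L y → g.1 y = y) ∨ (∀ y, Pp Q T y → Pp Q L y → g.1 y = -y) := by
  have mix : ∀ y y', Pp Q T y → Pp Q L y → Pp Q T y' → Pp Q L y' → Q y ≠ 0 → Q y' ≠ 0 → g.1 y = y →
      g.1 y' = -y' → False := fun y y' a1 a2 b1 b2 a3 b3 a4 b4 => by
    have o : polar Q y y' = 0 := by
      have := OG.polar_app g y y'
      rw [a4, b4, polar_neg_right] at this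
      exact (mul_eq_zero.1 (by linear_combination -this : 2 * polar Q y y' = 0)).resolve_left c.h2
    by_cases hs : Q y + Q y' = 0
    · obtain ⟨z, z1, z2, z3⟩ := c.ex (y :: y' :: T) L (ns_cons (ns_cons hT b3) a3)
        (pw_cons (pw_cons hp b1) (pp_cons.2 ⟨by rw [polar_comm]; exact o, a1⟩))
        (by simp only [List.length_cons]; omega) 1
      simp only [pp_cons] at z2
      refine no_mix c.h2 a3 b3 o z2.1 z2.2.1 a4 b4 (hg z z2.2.2 z3 (by rw [z1]; exact one_ne_zero))
        (hg _ ((a1.add b1).add z2.2.2) ((a2.add b2).add z3) ?_)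
      rw [map_add', map_add', polar_add_left, o, z2.1, z2.2.1, z1, hs]
      simp
    · refine no_mix c.h2 a3 b3 o (z := 0) (by simp) (by simp) a4 b4 (Or.inl (map_zero _))
        (hg _ (by rw [add_zero]; exact a1.add b1) (by rw [add_zero]; exact a2.add b2) ?_)
      rwa [add_zero, map_add', o, add_zero]
  have red : ∀ y, Pp Q T y → Pp Q L y → Q y = 0 → ∃ z, Pp Q T z ∧ Pp Q L z ∧ Q z ≠ 0 ∧ Q (y + z) ≠ 0 :=
    fun y a1 a2 a3 => by
      obtain ⟨z, z1, z2, z3⟩ := c.ex T (y :: L) hT hp (by simp only [List.length_cons]; omega) 1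
      rw [pp_cons] at z3
      refine ⟨z, z2, z3.2, by rw [z1]; exact one_ne_zero, ?_⟩
      rw [map_add', a3, z1, z3.1]
      simp
  obtain ⟨y0, p1, p2, p3⟩ := c.ex T L hT hp (by omega) 1
  have p4 : Q y0 ≠ 0 := by rw [p1]; exact one_ne_zero
  rcases hg y0 p2 p3 p4 with e | e
  · have k : ∀ y, Pp Q T y → Pp Q L y → Q y ≠ 0 → g.1 y = y := fun y a1 a2 a3 =>
      (hg y a1 a2 a3).resolve_right fun e' => mix y0 y p2 p3 a1 a2 p4 a3 e e'
    refine Or.inl fun y a1 a2 => ?_
    by_cases a3 : Q y = 0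
    · obtain ⟨z, z1, z2, z3, z4⟩ := red y a1 a2 a3
      have := k _ (a1.add z1) (a2.add z2) z4
      rw [map_add, k z z1 z2 z3] at this
      exact add_right_cancel this
    · exact k y a1 a2 a3
  · have k : ∀ y, Pp Q T y → Pp Q L y → Q y ≠ 0 → g.1 y = -y := fun y a1 a2 a3 =>
      (hg y a1 a2 a3).resolve_left fun e' => mix y y0 a1 a2 p2 p3 a3 p4 e' e
    refine Or.inr fun y a1 a2 => ?_
    by_cases a3 : Q y = 0
    · obtain ⟨z, z1, z2, z3, z4⟩ := red y a1 a2 a3
      have := k _ (a1.add z1) (a2.add z2) z4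
      rw [map_add, k z z1 z2 z3, neg_add] at this
      exact add_right_cancel this
    · exact k y a1 a2 a3

/-- A vector orthogonal to the perp of `e` is a multiple of `e`. -/
theorem smul_of_perp (hQ : (polarBilin Q).Nondegenerate) {e w : V} (he : e ≠ 0)
    (h : ∀ v, polar Q e v = 0 → polar Q w v = 0) : ∃ k : F, w = k • e := by
  obtain ⟨p, hp⟩ := exists_polar_eq_one hQ he
  refine ⟨polar Q w p, sub_eq_zero.1 (nondeg_iff.1 hQ _ fun x => ?_)⟩
  have := h (x - polar Q e x • p) (by rw [polar_sub_right, polar_smul_right, hp]; simp)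
  rw [polar_sub_right, polar_smul_right, smul_eq_mul] at this
  rw [polar_sub_left, polar_smul_left, smul_eq_mul]
  linear_combination this

/-- An isometry fixing `e` and its perp is trivial. -/
theorem eq_one_of_fix (hQ : (polarBilin Q).Nondegenerate) (h2 : (2 : F) ≠ 0) {e : V} (he : e ≠ 0) {g : OG Q}
    (h1 : g.1 e = e) (h : ∀ v, polar Q e v = 0 → g.1 v = v) : g = 1 := by
  refine OG.ext' fun v => ?_
  rw [OG.one_app]
  by_cases hv : polar Q e v = 0
  · exact h v hv
  obtain ⟨k, hk⟩ := smul_of_perp hQ he (w := g.1 v - v) fun x hx => by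
    rw [polar_sub_left, ← OG.polar_app g v x, h x hx, sub_self]
  have a1 : k * (2 * Q e) = 0 := by
    have := OG.polar_app g v e
    rw [h1, ← sub_eq_zero, ← polar_sub_left, hk, polar_smul_left, polar_self'] at this
    exact this
  have a2 := OG.map_app g v
  rw [sub_eq_iff_eq_add.1 hk, map_add', map_smul', polar_smul_left, smul_eq_mul] at a2
  have a3 : k * Q e = 0 := (mul_eq_zero.1 (by linear_combination a1 : 2 * (k * Q e) = 0)).resolve_left h2
  have a4 : k = 0 := (mul_eq_zero.1 (by linear_combination a2 - k * a3 : k * polar Q e v = 0)).resolve_right hv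
  rw [a4, zero_smul] at hk
  exact sub_eq_zero.1 hk

end CL.NCG
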