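/-
Recognition of `Ω` over the field with three elements from its commuting graph: rigidity.
-/
import Cfsg.Agent.NCG.A
import Cfsg.Agent.NCG.B

set_option autoImplicit false
set_option linter.unusedSectionVars false

open QuadraticMap Module

namespace CL.NCG

open CL.Cls

variable {F V : Type*} [Field F] [AddCommGroup V] [Module F V] {Q : QuadraticForm F V}
variable [Finite F] [FiniteDimensional F V]

theorem Ctx.dd_mem (c : Ctx Q) {a b : V} (h : IsD Q a b) : dd Q a b ∈ commutator (OG Q) :=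
  refl_mul_refl_mem_commutator c.nd h.ne h.ne' (by rw [h.eq])

/-- Two further vectors of a given norm. -/
theorem Ctx.ex2 (c : Ctx Q) (T L : List V) (hT : ∀ x ∈ T, Q x ≠ 0)
    (hp : T.Pairwise fun x y => polar Q x y = 0) (h : T.length + 2 * L.length ≤ 7) {k : F} (hk : k ≠ 0) :
    ∃ y y', Q y = k ∧ Q y' = k ∧ polar Q y y' = 0 ∧ Pp Q T y ∧ Pp Q L y ∧ Pp Q T y' ∧ Pp Q L y' := by
  obtain ⟨y, a1, a2, a3⟩ := c.ex T L hT hp (by omega) k
  obtain ⟨y', b1, b2, b3⟩ := c.ex (y :: T) L (ns_cons hT (a1 ▸ hk)) (pw_cons hp a2)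
    (by simp only [List.length_cons]; omega) k
  rw [pp_cons] at b2
  exact ⟨y, y', a1, b1, b2.1, a2, a3, b2.2, b3⟩

theorem IsD.ns {a b : V} (h : IsD Q a b) : ∀ x ∈ [a, b], Q x ≠ 0 := by
  simp [h.ne, h.ne']

theorem IsD.pw {a b : V} (h : IsD Q a b) : [a, b].Pairwise fun x y => polar Q x y = 0 := by
  simp [h.o]

/-- An element of `Ω` commuting with enough neighbours of `dd w w'` is `1` or `dd w w'`. -/
theorem Ctx.keyK (c : Ctx Q) {w w' : V} (hw : IsD Q w w') (p p' : V) {g : OG Q} (hg : g ∈ commutator (OG Q))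
    (H : ∀ v f, IsD Q v f → polar Q p f = 0 → polar Q p' f = 0 → Commute (dd Q v f) (dd Q w w') →
      Commute (dd Q v f) g) : g = 1 ∨ g = dd Q w w' := by
  have key : ∀ v f f', Q v ≠ 0 → Q f = Q v → Q f' = Q v → polar Q v f = 0 → polar Q v f' = 0 →
      polar Q f f' = 0 → Pp Q [w, w'] f → Pp Q [p, p'] f → Pp Q [w, w'] f' → Pp Q [p, p'] f' →
      Fx (dd Q w w') v → Fx g v := fun v f f' a1 a2 a3 a4 a5 a6 b1 b2 b3 b4 b5 => by
    simp only [pp_cons] at b1 b2 b3 b4
    exact fx_of_comm c ⟨a1, a2, a4⟩ ⟨a1, a3, a5⟩ a6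
      (H v f ⟨a1, a2, a4⟩ b2.1 b2.2.1 (comm_dd b5 (Or.inl (dd_fix b1.1 b1.2.1))))
      (H v f' ⟨a1, a3, a5⟩ b4.1 b4.2.1 (comm_dd b5 (Or.inl (dd_fix b3.1 b3.2.1))))
  have sc := c.scalar [w, w'] [] hw.ns hw.pw (by simp) (g := g) fun v a1 _ a3 => by
    obtain ⟨f, f', b1, b2, b3, b4, b5, b6, b7⟩ := c.ex2 [v, w, w'] [p, p'] (ns_cons hw.ns a3)
      (pw_cons hw.pw a1) (by simp) a3
    rw [pp_cons] at b4 b6
    refine key v f f' a3 b1 b2 b4.1 b6.1 b3 b4.2 b5 b6.2 b7 (Or.inl ?_)
    simp only [pp_cons] at a1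
    exact dd_fix a1.1 a1.2.1
  have inW : ∀ v, Q v ≠ 0 → (∀ f, Pp Q [w, w'] f → polar Q v f = 0) → (dd Q w w').1 v = -v → Fx g v :=
    fun v a1 a2 a3 => by
      obtain ⟨f, f', b1, b2, b3, b4, b5, b6, b7⟩ := c.ex2 [w, w'] [p, p'] hw.ns hw.pw (by simp) a1
      exact key v f f' a1 b1 b2 (a2 f b4) (a2 f' b6) b3 b4 b5 b6 b7 (Or.inr a3)
  have f1 : Fx g w := inW w hw.ne (fun f hf => hf w (by simp)) (dd_left hw.ne hw.o)
  have f2 : Fx g w' := inW w' hw.ne' (fun f hf => hf w' (by simp)) (dd_right hw.ne' hw.o)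
  have f3 : Fx g (w + w') := inW (w + w')
    (by rw [map_add', hw.o, hw.eq, add_zero, ← two_mul]; exact mul_ne_zero c.h2 hw.ne)
    (fun f hf => by rw [polar_add_left, hf w (by simp), hf w' (by simp), add_zero])
    (by rw [map_add, dd_left hw.ne hw.o, dd_right hw.ne' hw.o, neg_add])
  have z0 : Fx g 0 := Or.inl (map_zero _)
  have same : (g.1 w = w ∧ g.1 w' = w') ∨ (g.1 w = -w ∧ g.1 w' = -w') := by
    rcases f1 with e | e <;> rcases f2 with e' | e'
    · exact Or.inl ⟨e, e'⟩
    · exact (no_mix c.h2 hw.ne hw.ne' hw.o (by simp) (by simp) e e' z0 (by rwa [add_zero])).elim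
    · exact (no_mix c.h2 hw.ne' hw.ne hw.o' (by simp) (by simp) e' e z0 (by rwa [add_zero, add_comm])).elim
    · exact Or.inr ⟨e, e'⟩
  have pp : ∀ x, polar Q w x = 0 → polar Q w' x = 0 → Pp Q [w, w'] x := fun x a b => by simp [pp_cons, a, b, pp_nil]
  rcases sc with s | s <;> rcases same with ⟨e, e'⟩ | ⟨e, e'⟩
  · exact Or.inl (ext2 c.h2 hw e e' fun x a b => s x (pp x a b) pp_nil)
  · exact Or.inr (eq_dd c.h2 hw e e' fun x a b => s x (pp x a b) pp_nil)
  · have : negOG Q * g = dd Q w w' := eq_dd c.h2 hw (by rw [OG.mul_app, e, negOG_app])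
      (by rw [OG.mul_app, e', negOG_app]) fun x a b => by
        rw [OG.mul_app, s x (pp x a b) pp_nil, negOG_app, neg_neg]
    have hm : negOG Q * g ∈ commutator (OG Q) := by rw [this]; exact c.dd_mem hw
    exact absurd (by simpa using mul_mem hm (inv_mem hg)) c.neg
  · have : g = negOG Q := ext2 c.h2 hw e e' fun x a b => s x (pp x a b) pp_nil
    exact absurd (this ▸ hg) c.neg

/-- The configuration of the first step. -/
structure Cf (Q : QuadraticForm F V) (a a' e f : V) : Prop where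
  d : IsD Q a a'
  f0 : Q f ≠ 0
  n : Q f = Q a + Q e
  e0 : e ≠ 0
  ae : polar Q a e = 0
  be : polar Q a' e = 0
  af : polar Q a f = 0
  bf : polar Q a' f = 0
  fe : polar Q f e = 0

omit [Finite F] [FiniteDimensional F V] in
theorem Cf.isD {a a' e f : V} (h : Cf Q a a' e f) : IsD Q (a + e) f :=
  ⟨by rw [map_add', h.ae, add_zero, ← h.n]; exact h.f0, by rw [map_add', h.ae, add_zero, h.n], by
    rw [polar_add_left, h.af, polar_comm, h.fe, add_zero]⟩

omit [Finite F] [FiniteDimensional F V] in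
theorem Cf.ns {a a' e f : V} (h : Cf Q a a' e f) : ∀ x ∈ [a, a', f], Q x ≠ 0 := by
  simp [h.d.ne, h.d.ne', h.f0]

omit [Finite F] [FiniteDimensional F V] in
theorem Cf.pw {a a' e f : V} (h : Cf Q a a' e f) : [a, a', f].Pairwise fun x y => polar Q x y = 0 := by
  simp [h.d.o, h.af, h.bf]

omit [Finite F] [FiniteDimensional F V] in
theorem fix_u {a a' e f y : V} (h1 : Pp Q [a, a', f] y) (h2 : Pp Q [e] y) : (dd Q (a + e) f).1 y = y :=
  dd_fix (by rw [polar_add_left, h1 a (by simp), h2 e (by simp), add_zero]) (h1 f (by simp))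

omit [Finite F] [FiniteDimensional F V] in
theorem fix_t {a a' f y : V} (h1 : Pp Q [a, a', f] y) : (dd Q a a').1 y = y :=
  dd_fix (h1 a (by simp)) (h1 a' (by simp))

omit [Finite F] [FiniteDimensional F V] in
theorem Cf.dec (h2 : (2 : F) ≠ 0) {a a' e f : V} (h : Cf Q a a' e f) {v : V} (hv : polar Q e v = 0) :
    ∃ (k l m : F) (w : V), v = w + k • a + l • a' + m • f ∧ Pp Q [a, a', f] w ∧ Pp Q [e] w := by
  obtain ⟨k, l, m, w, rfl, a1, a2, a3⟩ := dec3 h2 h.d.ne h.d.ne' h.f0 h.d.o h.af h.bf v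
  refine ⟨k, l, m, w, rfl, by simp [pp_cons, a1, a2, a3, pp_nil], ?_⟩
  simp only [polar_add_right, polar_smul_right, polar_comm Q e a, polar_comm Q e a', polar_comm Q e f, h.ae,
    h.be, h.fe, smul_zero, add_zero] at hv
  simp [pp_cons, hv, pp_nil]

theorem Ctx.step1' (c : Ctx Q) {a a' e f : V} (h : Cf Q a a' e f) {g : OG Q} (hgg : g * g = 1)
    (hnc : ¬ Commute (dd Q a a') g) (hY : ∀ y, Pp Q [a, a', f] y → Pp Q [e] y → g.1 y = y)
    (ha' : Fx g a') (hf : Fx g f)
    (H : ∀ v b, IsD Q v b → Commute (dd Q v b) (dd Q a a') → Commute (dd Q v b) g →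
      Commute (dd Q v b) (dd Q (a + e) f)) :
    g = dd Q (a + e) f ∨ g = dd Q (a - e) f ∨ dickson c.nd g = -1 := by
  have gg : ∀ x, g.1 (g.1 x) = x := fun x => by rw [← OG.mul_app, hgg, OG.one_app]
  have hf' : g.1 f = -f := by
    refine hf.resolve_left fun hf1 => ?_
    obtain ⟨y, y1, y2, y3⟩ := c.ex [a, a', f] [e] h.ns h.pw (by simp) (Q f)
    have fy : polar Q f y = 0 := y2 f (by simp)
    have q1 : Q (f + y) = 2 * Q f := by rw [map_add', fy, y1]; ring
    have q2 : Q (f + y) ≠ 0 := q1 ▸ mul_ne_zero c.h2 h.f0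
    obtain ⟨z, z1, z2, z3⟩ := c.ex [y, a, a', f] [e] (ns_cons h.ns (y1 ▸ h.f0)) (pw_cons h.pw y2) (by simp)
      (Q (f + y))
    rw [pp_cons] at z2
    have fz : polar Q f z = 0 := z2.2 f (by simp)
    have hD : IsD Q (f + y) z := ⟨q2, z1, by rw [polar_add_left, fz, z2.1, add_zero]⟩
    have hc := H _ _ hD (comm_dd (Or.inl (by rw [map_add, fix_t y2, dd_fix h.af h.bf])) (Or.inl (fix_t z2.2)))
      (comm_dd (Or.inl (by rw [map_add, hf1, hY y y2 y3])) (Or.inl (hY z z2.2 z3)))
    have r1 : (dd Q (f + y) z).1 f = -y := by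
      rw [dd, OG.mul_app, refl_app_of_polar (v := z) (x := f) (by rw [polar_comm]; exact fz), ← sub_neg_eq_add]
      exact refl_sub_app (by rw [QuadraticMap.map_neg, y1]) (by rwa [sub_neg_eq_add])
    have := app_comm hc f
    rw [dd_right h.f0 h.isD.o, map_neg, r1, map_neg, fix_u y2 y3, neg_neg] at this
    exact ne_neg_self c.h2 (y1 ▸ h.f0) this
  obtain ⟨x, w, hw, hw'⟩ := dec1 c.h2 h.d.ne (g.1 a)
  have o1 : polar Q (g.1 a) a' = 0 := by
    have := OG.polar_app g a a'
    rcases ha' with e | e <;> rw [e, h.d.o] at this <;> simpa using this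
  have o2 : polar Q (g.1 a) f = 0 := by
    have := OG.polar_app g a f
    rw [hf', h.af] at this
    simpa using this
  obtain ⟨y, rfl⟩ := smul_of_perp c.nd h.e0 (w := w) fun v hv => by
    obtain ⟨k, l, m, u, rfl, u1, u2⟩ := h.dec c.h2 hv
    have o3 : polar Q (g.1 a) u = 0 := by rw [← hY u u1 u2, OG.polar_app]; exact u1 a (by simp)
    rw [hw, polar_add_left, polar_smul_left] at o1 o2 o3
    rw [h.d.o, smul_zero, add_zero] at o1
    rw [h.af, smul_zero, add_zero] at o2
    rw [u1 a (by simp), smul_zero, add_zero] at o3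
    simp only [polar_add_right, polar_smul_right, o1, o2, o3, polar_comm Q w a, hw', smul_zero, add_zero]
  have nq := OG.map_app g a
  rw [hw, map_add', map_smul', map_smul', polar_smul_right, polar_comm, hw', smul_zero, add_zero] at nq
  have y0 : y ≠ 0 := by
    rintro rfl
    rw [zero_smul, zero_add] at hw
    refine hnc (comm_dd ?_ ha')
    rcases c.h3 x with r | r | r <;> rw [r] at hw nq
    · exact absurd (by simpa using nq.symm) h.d.ne
    · exact Or.inl (by rw [hw, one_smul])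
    · exact Or.inr (by rw [hw, neg_one_smul])
  have yy : y ^ 2 = 1 := by
    rcases c.h3 y with r | r | r
    · exact absurd r y0
    · rw [r]; ring
    · rw [r]; ring
  rw [yy, one_mul] at nq
  have h3a : (3 : F) • a = 0 := by rw [c.three, zero_smul]
  have hn : ∃ η : F, (η = 1 ∨ η = -1) ∧ (a - g.1 a = a + η • e ∨ a - g.1 a = -(a + η • e)) := by
    have y1 : y = 1 ∨ y = -1 := (c.h3 y).resolve_left y0
    by_cases qe : Q e = 0
    · have ge : g.1 e = e := hY e (by simp [pp_cons, h.ae, h.be, h.fe, pp_nil])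
        (by simp [pp_cons, pp_nil, qe])
      have xx : x ^ 2 = 1 := mul_right_cancel₀ h.d.ne (by linear_combination nq - qe)
      have := gg a
      rw [hw, map_add, map_smul, map_smul, ge, hw] at this
      have t2 : ((1 + x) * y) • e = 0 := by
        have t1 : (x ^ 2) • a = a := by rw [xx, one_smul]
        linear_combination (norm := module) this - t1
      have t3 : x = -1 := by
        have := (mul_eq_zero.1 ((smul_eq_zero.1 t2).resolve_right h.e0)).resolve_right y0
        linear_combination this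
      refine ⟨y, y1, Or.inr ?_⟩
      rw [hw, t3]
      linear_combination (norm := module) h3a
    · have x0 : x = 0 := by
        rcases c.h3 x with r | r | r
        · exact r
        · exact absurd (by rw [r] at nq; linear_combination nq) qe
        · exact absurd (by rw [r] at nq; linear_combination nq) qe
      refine ⟨-y, by rcases y1 with r | r <;> simp [r], Or.inl ?_⟩
      rw [hw, x0]
      module
  obtain ⟨η, hη, hn⟩ := hn
  have η2 : η * η = 1 := by rcases hη with r | r <;> rw [r] <;> ring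
  set n := a + η • e with hnd
  have qn : Q n = Q f := by
    rw [hnd, map_add', map_smul', polar_smul_right, h.ae, h.n, pow_two, η2]; simp
  have qn' : Q (a - g.1 a) ≠ 0 := by
    rcases hn with r | r <;> rw [r]
    · exact qn ▸ h.f0
    · rw [QuadraticMap.map_neg]; exact qn ▸ h.f0
  have rn : refl Q n = refl Q (a - g.1 a) := by
    rcases hn with r | r <;> rw [r]
    exact (refl_neg n).symm
  have gn : g.1 n = -n := by
    have : g.1 (a - g.1 a) = -(a - g.1 a) := by rw [map_sub, gg, neg_sub]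
    rcases hn with r | r <;> rw [r] at this
    · exact this
    · rw [map_neg, neg_neg] at this
      exact neg_eq_iff_eq_neg.1 this
  have ra : (refl Q n).1 (g.1 a) = a := by
    have := refl_sub_app (OG.map_app g a).symm qn'
    rw [← rn] at this
    rw [← this, refl_app_refl_app]
  have nf : polar Q n f = 0 := by
    rw [hnd, polar_add_left, polar_smul_left, h.af, polar_comm, h.fe]; simp
  have fn : polar Q f n = 0 := by rw [polar_comm]; exact nf
  have na' : polar Q n a' = 0 := by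
    rw [hnd, polar_add_left, polar_smul_left, h.d.o, polar_comm, h.be]; simp
  have fa : polar Q f a = 0 := by rw [polar_comm]; exact h.af
  have fa' : polar Q f a' = 0 := by rw [polar_comm]; exact h.bf
  set k := refl Q f * refl Q n * g with hk
  have ka : k.1 a = a := by rw [hk, OG.mul_app, OG.mul_app, ra, refl_app_of_polar fa]
  have kn : k.1 n = n := by
    rw [hk, OG.mul_app, OG.mul_app, gn, map_neg, refl_app_self (qn ▸ h.f0), neg_neg, refl_app_of_polar fn]
  have kf : k.1 f = f := by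
    rw [hk, OG.mul_app, OG.mul_app, hf', map_neg, refl_app_of_polar nf, map_neg, refl_app_self h.f0, neg_neg]
  have kY : ∀ u, Pp Q [a, a', f] u → Pp Q [e] u → k.1 u = u := fun u u1 u2 => by
    rw [hk, OG.mul_app, OG.mul_app, hY u u1 u2, refl_app_of_polar (v := n) (by
      rw [hnd, polar_add_left, polar_smul_left, u1 a (by simp), u2 e (by simp)]; simp),
      refl_app_of_polar (u1 f (by simp))]
  have ke : k.1 e = e := by
    have : e = η • (n - a) := by rw [hnd, add_sub_cancel_left, smul_smul, η2, one_smul]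
    rw [this, map_smul, map_sub, kn, ka]
  have triv : ∀ k' : OG Q, k'.1 a = a → k'.1 a' = a' → k'.1 f = f → k'.1 e = e →
      (∀ u, Pp Q [a, a', f] u → Pp Q [e] u → k'.1 u = u) → k' = 1 := fun k' b1 b2 b3 b4 b5 =>
    eq_one_of_fix c.nd c.h2 h.e0 b4 fun v hv => by
      obtain ⟨r, l, m, u, rfl, u1, u2⟩ := h.dec c.h2 hv
      simp only [map_add, map_smul, b1, b2, b3, b5 u u1 u2]
  rcases ha' with b | b
  · have k1 : k = 1 := triv k ka (by
      rw [hk, OG.mul_app, OG.mul_app, b, refl_app_of_polar na', refl_app_of_polar fa']) kf ke kY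
    have : g = dd Q n f := by
      rw [dd, ← refl_inv n, ← refl_inv f, ← mul_inv_rev]
      exact (eq_inv_of_mul_eq_one_right k1)
    rcases hη with r | r
    · exact Or.inl (by rw [this, hnd, r, one_smul])
    · exact Or.inr (Or.inl (by rw [this, hnd, r, neg_one_smul, sub_eq_add_neg]))
  · have k1 : refl Q a' * k = 1 := triv _ (by rw [OG.mul_app, ka, refl_app_of_polar h.d.o'])
      (by rw [OG.mul_app, hk, OG.mul_app, OG.mul_app, b, map_neg, refl_app_of_polar na', map_neg,
        refl_app_of_polar fa', map_neg, refl_app_self h.d.ne', neg_neg])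
      (by rw [OG.mul_app, kf, refl_app_of_polar h.bf]) (by rw [OG.mul_app, ke, refl_app_of_polar h.be])
      fun u u1 u2 => by rw [OG.mul_app, kY u u1 u2, refl_app_of_polar (u1 a' (by simp))]
    have := congrArg (dickson c.nd) k1
    rw [hk, map_mul, map_mul, map_mul, dickson_refl c.nd h.d.ne', dickson_refl c.nd h.f0,
      dickson_refl c.nd (qn ▸ h.f0), map_one] at this
    refine Or.inr (Or.inr ?_)
    rcases Int.units_eq_one_or (dickson c.nd g) with r | r
    · rw [r] at this; exact absurd this (by decide)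
    · exact r

theorem Ctx.dickson_neg (c : Ctx Q) : dickson c.nd (negOG Q) = 1 := by
  rw [dickson_eq_one_iff_det c.nd c.h2]
  have : ((negOG Q).1 : V →ₗ[F] V) = (-1 : F) • LinearMap.id := by ext x; simp [negOG_app]
  rw [this, LinearMap.det_smul, LinearMap.det_id, c.ev.neg_one_pow, mul_one]

theorem Ctx.step1 (c : Ctx Q) {a a' e f : V} (h : Cf Q a a' e f) {g : OG Q} (hg : g ∈ commutator (OG Q))
    (hgg : g * g = 1) (hnc : ¬ Commute (dd Q a a') g)
    (H : ∀ v b, IsD Q v b → Commute (dd Q v b) (dd Q a a') →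
      (Commute (dd Q v b) (dd Q (a + e) f) ↔ Commute (dd Q v b) g)) :
    g = dd Q (a + e) f ∨ g = dd Q (a - e) f := by
  have key : ∀ v b b', Q v ≠ 0 → Q b = Q v → Q b' = Q v → polar Q v b = 0 → polar Q v b' = 0 →
      polar Q b b' = 0 → Pp Q [a, a', f] b → Pp Q [e] b → Pp Q [a, a', f] b' → Pp Q [e] b' →
      Fx (dd Q a a') v → Fx (dd Q (a + e) f) v → Fx g v := fun v b b' a1 a2 a3 a4 a5 a6 b1 b2 b3 b4 b5 b6 =>
    fx_of_comm c ⟨a1, a2, a4⟩ ⟨a1, a3, a5⟩ a6
      ((H v b ⟨a1, a2, a4⟩ (comm_dd b5 (Or.inl (fix_t b1)))).1 (comm_dd b6 (Or.inl (fix_u b1 b2))))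
      ((H v b' ⟨a1, a3, a5⟩ (comm_dd b5 (Or.inl (fix_t b3)))).1 (comm_dd b6 (Or.inl (fix_u b3 b4))))
  have sc := c.scalar [a, a', f] [e] h.ns h.pw (by simp) (g := g) fun v a1 a2 a3 => by
    obtain ⟨b, b', b1, b2, b3, b4, b5, b6, b7⟩ := c.ex2 [v, a, a', f] [e] (ns_cons h.ns a3)
      (pw_cons h.pw a1) (by simp) a3
    rw [pp_cons] at b4 b6
    exact key v b b' a3 b1 b2 b4.1 b6.1 b3 b4.2 b5 b6.2 b7 (Or.inl (fix_t a1)) (Or.inl (fix_u a1 a2))
  have inT : ∀ v ∈ [a, a', f], Fx (dd Q a a') v → Fx (dd Q (a + e) f) v → Fx g v := fun v hv a1 a2 => by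
    obtain ⟨b, b', b1, b2, b3, b4, b5, b6, b7⟩ := c.ex2 [a, a', f] [e] h.ns h.pw (by simp) (h.ns v hv)
    exact key v b b' (h.ns v hv) b1 b2 (b4 v hv) (b6 v hv) b3 b4 b5 b6 b7 a1 a2
  have f1 : Fx g a' := inT a' (by simp) (Or.inr (dd_right h.d.ne' h.d.o)) (Or.inl (dd_fix (by
    rw [polar_add_left, h.d.o, polar_comm, h.be, add_zero]) (by rw [polar_comm]; exact h.bf)))
  have f2 : Fx g f := inT f (by simp) (Or.inl (dd_fix h.af h.bf)) (Or.inr (dd_right h.f0 h.isD.o))
  have dg := dickson_eq_one_of_mem_commutator c.nd hg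
  rcases sc with s | s
  · rcases c.step1' h hgg hnc s f1 f2 fun v b a1 a2 a3 => (H v b a1 a2).2 a3 with r | r | r
    · exact Or.inl r
    · exact Or.inr r
    · rw [dg] at r; exact absurd r (by decide)
  · exfalso
    have cm : ∀ x : OG Q, Commute x (negOG Q * g) → Commute x g := fun x hx => by
      have := Commute.mul_right (show Commute x (negOG Q) from negOG_comm x) hx
      rwa [← mul_assoc, negOG_mul_self, one_mul] at this
    have fx : ∀ v, Fx g v → Fx (negOG Q * g) v := fun v hv => by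
      rcases hv with r | r
      · exact Or.inr (by rw [OG.mul_app, r, negOG_app])
      · exact Or.inl (by rw [OG.mul_app, r, negOG_app, neg_neg])
    have nm : negOG Q * g ∉ commutator (OG Q) := fun hm => c.neg (by simpa using mul_mem hm (inv_mem hg))
    rcases c.step1' h (g := negOG Q * g) (by
        rw [mul_assoc, ← mul_assoc g, negOG_comm g, mul_assoc, hgg, mul_one, negOG_mul_self])
      (fun hc => hnc (cm _ hc)) (fun y a1 a2 => by rw [OG.mul_app, s y a1 a2, negOG_app, neg_neg])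
      (fx _ f1) (fx _ f2) fun v b a1 a2 a3 => (H v b a1 a2).2 (cm _ a3) with r | r | r
    · exact nm (r ▸ c.dd_mem h.isD)
    · refine nm (r ▸ c.dd_mem ⟨?_, ?_, ?_⟩)
      · rw [CL.Cls.map_sub', h.ae, sub_zero, ← h.n]; exact h.f0
      · rw [CL.Cls.map_sub', h.ae, sub_zero, h.n]
      · rw [polar_sub_left, h.af, polar_comm, h.fe, sub_zero]
    · rw [map_mul, dg, c.dickson_neg] at r; exact absurd r (by decide)

/-- The distinguished class of involutions of `Ω`. -/
def DS (Q : QuadraticForm F V) : Set (commutator (OG Q)) := {x | ∃ a b, IsD Q a b ∧ (x : OG Q) = dd Q a b}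

theorem comm_coe {x y : commutator (OG Q)} : Commute x y ↔ Commute (x : OG Q) (y : OG Q) :=
  ⟨fun h => congrArg Subtype.val h, fun h => Subtype.ext h⟩

theorem Ctx.ne_one (c : Ctx Q) {u : commutator (OG Q)} (hu : u ∈ DS Q) : u ≠ 1 := by
  rintro rfl
  obtain ⟨a, b, h, e⟩ := hu
  have := dd_left h.ne h.o
  rw [← e] at this
  exact ne_neg_self c.h2 h.ne this

theorem DS.conj (m : commutator (OG Q)) {u : commutator (OG Q)} (hu : u ∈ DS Q) : m * u * m⁻¹ ∈ DS Q := by
  obtain ⟨a, b, h, e⟩ := hu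
  exact ⟨_, _, h.map m.1, by rw [← dd_conj, ← e]; rfl⟩

theorem Ctx.cc (c : Ctx Q) {u : commutator (OG Q)} (hu : u ∈ DS Q) (g : commutator (OG Q))
    (H : ∀ x, Commute x u → Commute x g) : g = 1 ∨ g = u := by
  obtain ⟨a, b, h, e⟩ := hu
  refine (c.keyK h 0 0 g.2 fun v f h1 _ _ h2 => ?_).imp (fun r => Subtype.ext r) fun r => Subtype.ext (r.trans e.symm)
  exact comm_coe.1 (H ⟨_, c.dd_mem h1⟩ (comm_coe.2 (e ▸ h2)))

theorem Ctx.rigid (c : Ctx Q) {t : commutator (OG Q)} (ht : t ∈ DS Q) (α : commutator (OG Q) ≃ commutator (OG Q))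
    (hα : ∀ x y, Commute x y ↔ Commute (α x) (α y)) (hfix : ∀ x, α x = x ↔ Commute x t)
    {u : commutator (OG Q)} (hu : u ∈ DS Q) : α u = t * u * t⁻¹ := by
  obtain ⟨a, a', hD, et⟩ := ht
  have α1 : α 1 = 1 := (hfix 1).2 (Commute.one_left t)
  have easy : ∀ x, Commute x t → α x = t * x * t⁻¹ := fun x hx => by
    rw [(hfix x).2 hx, ← hx.eq, mul_inv_cancel_right]
  have s1 : ∀ v f, (h : IsD Q v f) → polar Q a f = 0 → polar Q a' f = 0 →
      α ⟨_, c.dd_mem h⟩ = t * ⟨_, c.dd_mem h⟩ * t⁻¹ := fun v f h af bf => by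
    set x : commutator (OG Q) := ⟨_, c.dd_mem h⟩ with hx
    by_cases hc : Commute x t
    · exact easy x hc
    have tf : (t : OG Q).1 f = f := by rw [et, dd_fix af bf]
    have nfx : ¬ Fx (t : OG Q) v := fun hv => hc (comm_coe.2 (comm_dd hv (Or.inl tf)))
    obtain ⟨k, l, e, hv, ae, be⟩ := dec2 c.h2 hD.ne hD.ne' hD.o v
    set p := k • a + l • a' with hp
    set p' := (-l) • a + k • a' with hp'
    have tp : (t : OG Q).1 p = -p := by
      rw [et, hp, map_add, map_smul, map_smul, dd_left hD.ne hD.o, dd_right hD.ne' hD.o]; module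
    have tp' : (t : OG Q).1 p' = -p' := by
      rw [et, hp', map_add, map_smul, map_smul, dd_left hD.ne hD.o, dd_right hD.ne' hD.o]; module
    have te : (t : OG Q).1 e = e := by rw [et, dd_fix ae be]
    have hv' : v = p + e := by rw [hv, hp]; module
    have e0 : e ≠ 0 := by
      rintro rfl
      exact nfx (Or.inr (by rw [hv', add_zero, tp]))
    have kl : k ^ 2 + l ^ 2 ≠ 0 := by
      intro h0
      have h3 := c.three
      rcases c.h3 k with r | r | r <;> rcases c.h3 l with r' | r' | r'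
      · refine nfx (Or.inl ?_)
        rw [hv', hp, r, r', zero_smul, zero_smul, zero_add, zero_add, te]
      all_goals
        rw [r, r'] at h0
        first
          | exact one_ne_zero (α := F) (by linear_combination h0)
          | exact c.h2 (by linear_combination h0)
    have qp : Q p = (k ^ 2 + l ^ 2) * Q a := by
      rw [hp, map_add', map_smul', map_smul', polar_smul_left, polar_smul_right, hD.o, hD.eq]; simp; ring
    have qp' : Q p' = (k ^ 2 + l ^ 2) * Q a := by
      rw [hp', map_add', map_smul', map_smul', polar_smul_left, polar_smul_right, hD.o, hD.eq]; simp; ring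
    have hP : IsD Q p p' := ⟨qp ▸ mul_ne_zero kl hD.ne, by rw [qp, qp'], by
      simp only [hp, hp', polar_add_left, polar_add_right, polar_smul_left, polar_smul_right, hD.o, hD.o',
        polar_self', hD.eq, smul_eq_mul]
      ring⟩
    have perp : ∀ w, polar Q a w = 0 → polar Q a' w = 0 → polar Q p w = 0 ∧ polar Q p' w = 0 := fun w h1 h2 => by
      simp [hp, hp', polar_add_left, polar_smul_left, h1, h2]
    have et' : (t : OG Q) = dd Q p p' := eq_dd c.h2 hP tp tp' fun w h1 h2 => by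
      simp only [hp, hp', polar_add_left, polar_smul_left, smul_eq_mul] at h1 h2
      rw [et]
      exact dd_fix ((mul_eq_zero.1 (by linear_combination k * h1 - l * h2)).resolve_left kl)
        ((mul_eq_zero.1 (by linear_combination l * h1 + k * h2)).resolve_left kl)
    have hC : Cf Q p p' e f := ⟨hP, h.ne', by rw [h.eq, hv', map_add', (perp e ae be).1, add_zero], e0,
      (perp e ae be).1, (perp e ae be).2, (perp f af bf).1, (perp f af bf).2, by
        have := h.o
        rwa [hv', polar_add_left, (perp f af bf).1, zero_add, polar_comm] at this⟩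
    have xD : x ∈ DS Q := ⟨v, f, h, rfl⟩
    have nc : ¬ Commute t (α x) := fun h' => by
      have := α.injective ((hfix _).2 h'.symm)
      exact hc (this ▸ h'.symm)
    have sq : α x * α x = 1 := by
      rcases c.cc xD (α.symm (α x * α x)) (fun y hy => by
        rw [hα, Equiv.apply_symm_apply]
        exact Commute.mul_right ((hα _ _).1 hy) ((hα _ _).1 hy)) with r | r
      · rw [← α1, ← r, Equiv.apply_symm_apply]
      · rw [Equiv.symm_apply_eq, mul_eq_left] at r
        exact absurd (α.injective (r.trans α1.symm)) (c.ne_one xD)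
    rcases c.step1 hC (α x).2 (congrArg Subtype.val sq) (fun h' => nc (comm_coe.2 (et' ▸ h')))
      (fun w b h1 h2 => by
        have y1 : α ⟨_, c.dd_mem h1⟩ = ⟨_, c.dd_mem h1⟩ := (hfix _).2 (comm_coe.2 (et' ▸ h2))
        have := hα ⟨_, c.dd_mem h1⟩ x
        rw [y1, comm_coe, comm_coe] at this
        rw [← hv']
        exact this) with r | r
    · exact absurd ((hfix x).1 (Subtype.ext (r.trans (by rw [← hv'])))) hc
    · refine Subtype.ext (r.trans ?_)
      change _ = (t : OG Q) * dd Q v f * (t : OG Q)⁻¹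
      rw [dd_conj, tf, hv', map_add, tp, te, dd, dd, ← refl_neg (p - e)]
      congr 2
      abel
  obtain ⟨w, w', hw, eu⟩ := id hu
  rcases c.keyK hw a a' (t⁻¹ * α u * t).2 (fun v f h af bf hc => by
    have h1 := (hα ⟨_, c.dd_mem h⟩ u).1 (comm_coe.2 (eu ▸ hc))
    rw [s1 v f h af bf] at h1
    have h2 := h1.map (MulAut.conj t⁻¹)
    refine comm_coe (x := ⟨_, c.dd_mem h⟩).1 ?_
    simpa [mul_assoc] using h2) with r | r
  · have h1 : t⁻¹ * α u * t = 1 := Subtype.ext r
    have h2 : α u = 1 := by simpa [mul_eq_one_iff_eq_inv] using h1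
    exact absurd (α.injective (h2.trans α1.symm)) (c.ne_one hu)
  · have h1 : t⁻¹ * α u * t = u := Subtype.ext (r.trans eu.symm)
    calc α u = t * (t⁻¹ * α u * t) * t⁻¹ := by group
      _ = t * u * t⁻¹ := by rw [h1]

theorem Ctx.main (c : Ctx Q) {G : Type*} [Group G] [Finite G]
    (φ : {g : G // g ∉ Subgroup.center G} ≃ {m : commutator (OG Q) // m ∉ Subgroup.center _})
    (hφ : ∀ x y : {g : G // g ∉ Subgroup.center G}, Commute x.1 y.1 ↔ Commute (φ x).1 (φ y).1) :
    Nonempty (G ≃* commutator (OG Q)) := by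
  have h5 : 5 ≤ finrank F V := by have := c.dim; omega
  have hZ := center_commutator_eq_bot c.nd h5 (Or.inr c.neg)
  obtain ⟨a, b, a1, a2, a3, -⟩ := c.ex2 [] [] (by simp) (by simp) (by simp) (one_ne_zero (α := F))
  have hD : IsD Q a b := ⟨a1 ▸ one_ne_zero, a2.trans a1.symm, a3⟩
  have tD : (⟨_, c.dd_mem hD⟩ : commutator (OG Q)) ∈ DS Q := ⟨a, b, hD, rfl⟩
  obtain ⟨ψ, hψ⟩ := exists_equiv φ hφ hZ (center_eq_bot φ hφ hZ (c.ne_one tD) (c.cc tD))
  refine iso_of_rigid ψ hψ hZ (DS Q) (fun m u hu => DS.conj m hu) (fun K hK => ?_)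
    fun t ht α h1 h2 u hu => c.rigid ht α h1 h2 hu
  rcases normal_commutator_OG c.nd h5 (Subgroup.normalClosure (DS Q)) inferInstance with r | r
  · have := r (Subgroup.subset_normalClosure tD)
    rw [hZ, Subgroup.mem_bot] at this
    exact absurd this (c.ne_one tD)
  · rw [eq_top_iff, ← r]
    refine (Subgroup.closure_le K).2 fun x hx => ?_
    obtain ⟨y, hy, hxy⟩ := Group.mem_conjugatesOfSet_iff.1 hx
    obtain ⟨m, rfl⟩ := isConj_iff.1 hxy
    exact hK (DS.conj m hy)

end CL.NCG
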